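import Cfsg.Agent.H35.K6.Rot
import Cfsg.Agent.H418.KB.Core

/-!
# S4876, orthogonal groups, `p ∣ q² - 1` (helper35): three orthogonal planes

`exists_three` : in dimension `≥ 7` there are elements `a = x₁`, `b = x₁x₂`, `c = x₁x₂x₃` of order `p` of `E Q` with different fixed spaces,
and an element `y = x₃` of order `p` and `c' ∈ E Q` inverting it, both commuting with `a` and `b`.
-/

set_option autoImplicit false

open QuadraticMap Module Cfsg.Agent.LieClassical.OrthCore Cfsg.Agent.LieClassical.OrthTrans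
  Cfsg.Agent.LieClassical.OrthFinite
open Cfsg.Agent.H418.KB (fixs mem_fixs)

namespace Cfsg.Agent.H35.K6

variable {F V : Type*} [Field F] [AddCommGroup V] [Module F V] {Q : QuadraticForm F V}

theorem polar_zero_comm {x y : V} (h : polar Q x y = 0) : polar Q y x = 0 := by rw [polar_comm]; exact h

/-- from a hyperbolic pair and a nonsingular vector to a plane and a nonsingular vector -/
theorem exists_plane {τ β : F} (hβ : β ≠ 0) (h4 : τ ^ 2 - 4 ≠ 0) {x y w : V} (h : Hyp Q x y) (hw : Q w = β)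
    (hxw : polar Q x w = 0) (hyw : polar Q y w = 0) :
    ∃ a b w' : V, TP Q τ β a b ∧ Q w' ≠ 0 ∧ polar Q a w' = 0 ∧ polar Q b w' = 0 ∧
      (∀ u, polar Q x u = 0 → polar Q y u = 0 → polar Q w u = 0 →
        polar Q a u = 0 ∧ polar Q b u = 0 ∧ polar Q w' u = 0) := by
  have hww : polar Q w w = 2 * β := by rw [polar_self', hw]
  have hwx := polar_zero_comm hxw
  have hwy := polar_zero_comm hyw
  have hxx := h.polar_left
  have hyy := h.polar_right
  have hxy := h.pair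
  have hyx := h.pair'
  refine ⟨x + β • y, (τ * β) • y + w, (-2 : F) • x + (2 * β) • y + τ • w, ⟨hβ, ?_, ?_, ?_⟩, ?_, ?_, ?_, ?_⟩
  · rw [Q_add, QuadraticMap.map_smul, polar_smul_right, h.left, h.right, hxy]
    simp
  · rw [Q_add, QuadraticMap.map_smul, polar_smul_left, hyw, h.right, hw]
    simp
  · simp only [polar_add_left, polar_add_right, polar_smul_left, polar_smul_right, smul_eq_mul, hxy, hyy, hxw, hyw]
    ring
  · have e : Q ((-2 : F) • x + (2 * β) • y + τ • w) = β * (τ ^ 2 - 4) := by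
      simp only [Q_add, QuadraticMap.map_smul, polar_add_left, polar_smul_left, polar_smul_right, smul_eq_mul, h.left, h.right, hw,
        hxy, hxw, hyw]
      ring
    rw [e]
    exact mul_ne_zero hβ h4
  · simp only [polar_add_left, polar_add_right, polar_smul_left, polar_smul_right, smul_eq_mul, hxx, hyx, hxy, hyy, hxw, hyw]
    ring
  · simp only [polar_add_left, polar_add_right, polar_smul_left, polar_smul_right, smul_eq_mul, hyx, hyy, hyw, hwx, hwy, hww]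
    ring
  · intro u h1 h2 h3
    simp only [polar_add_left, polar_smul_left, smul_eq_mul, h1, h2, h3]
    simp

/-- a partner orthogonal to two pairs -/
theorem exists_hyp_perp2 (hQ : Nondeg Q) {x y x' y' w : V} (h : Hyp Q x y) (h' : Hyp Q x' y') (o1 : polar Q x x' = 0)
    (o2 : polar Q x y' = 0) (o3 : polar Q y x' = 0) (o4 : polar Q y y' = 0) (hw : Q w = 0) (h0 : w ≠ 0)
    (hx : polar Q x w = 0) (hy : polar Q y w = 0) (hx' : polar Q x' w = 0) (hy' : polar Q y' w = 0) :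
    ∃ z, Hyp Q w z ∧ polar Q x z = 0 ∧ polar Q y z = 0 ∧ polar Q x' z = 0 ∧ polar Q y' z = 0 := by
  obtain ⟨v, hv⟩ := hQ.exists_polar_eq h0 1
  obtain ⟨v', hv'⟩ : ∃ v', v' = proj Q x' y' (proj Q x y v) := ⟨_, rfl⟩
  have h1 : polar Q w v' = 1 := by rw [hv', polar_proj_of_perp hx' hy', polar_proj_of_perp hx hy, hv]
  have h2 : polar Q x v' = 0 := by
    rw [hv', polar_proj_of_perp (polar_zero_comm o1) (polar_zero_comm o2), polar_proj_left h]
  have h3 : polar Q y v' = 0 := by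
    rw [hv', polar_proj_of_perp (polar_zero_comm o3) (polar_zero_comm o4), polar_proj_right h]
  have h4 : polar Q x' v' = 0 := by rw [hv', polar_proj_left h']
  have h5 : polar Q y' v' = 0 := by rw [hv', polar_proj_right h']
  refine ⟨v' + (-Q v') • w, ⟨hw, ?_, ?_⟩, ?_, ?_, ?_, ?_⟩
  · rw [Q_add, QuadraticMap.map_smul, hw, polar_smul_right, polar_comm Q v' w, h1]
    simp
  · rw [polar_add_right, polar_smul_right, polar_self_of_sing hw, h1]
    simp
  all_goals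
    rw [polar_add_right, polar_smul_right]
    simp [h2, h3, h4, h5, hx, hy, hx', hy']

/-- three hyperbolic pairs and a nonsingular vector, pairwise orthogonal -/
theorem exists_frame [Finite F] (hQ : Nondeg Q) (h7 : 7 ≤ finrank F V) : ∃ x1 y1 x2 y2 x3 y3 w : V,
    Hyp Q x1 y1 ∧ Hyp Q x2 y2 ∧ Hyp Q x3 y3 ∧ Q w ≠ 0 ∧
    (polar Q x1 x2 = 0 ∧ polar Q x1 y2 = 0 ∧ polar Q y1 x2 = 0 ∧ polar Q y1 y2 = 0) ∧
    (polar Q x1 x3 = 0 ∧ polar Q x1 y3 = 0 ∧ polar Q y1 x3 = 0 ∧ polar Q y1 y3 = 0) ∧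
    (polar Q x2 x3 = 0 ∧ polar Q x2 y3 = 0 ∧ polar Q y2 x3 = 0 ∧ polar Q y2 y3 = 0) ∧
    (polar Q x1 w = 0 ∧ polar Q y1 w = 0) ∧ (polar Q x2 w = 0 ∧ polar Q y2 w = 0) ∧
    (polar Q x3 w = 0 ∧ polar Q y3 w = 0) := by
  have hG : Good Q := good_of_finite hQ (by omega)
  obtain ⟨x1, y1, h1⟩ := hG.exists_hyp
  obtain ⟨x2, y2, h2, a1, a2, a3, a4⟩ := hG.exists_hyp2 h1
  obtain ⟨x3, hx0, hx3, ho⟩ := exists_sing_perp (Q := Q) ![x1, y1, x2, y2] (by omega)
  have b1 : polar Q x1 x3 = 0 := ho 0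
  have b2 : polar Q y1 x3 = 0 := ho 1
  have b3 : polar Q x2 x3 = 0 := ho 2
  have b4 : polar Q y2 x3 = 0 := ho 3
  obtain ⟨y3, h3, c1, c2, c3, c4⟩ := exists_hyp_perp2 hQ h1 h2 a1 a2 a3 a4 hx3 hx0 b1 b2 b3 b4
  -- a nonzero vector orthogonal to all six
  obtain ⟨w, hw0, hw⟩ : ∃ w : V, w ≠ 0 ∧ ∀ i, polar Q ((![x1, y1, x2, y2, x3, y3] : Fin 6 → V) i) w = 0 := by
    let f : V →ₗ[F] (Fin 6 → F) := LinearMap.pi fun i => polarBilin Q ((![x1, y1, x2, y2, x3, y3] : Fin 6 → V) i)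
    have : Module.Finite F V := Module.finite_of_finrank_pos (by omega)
    have e1 := LinearMap.finrank_range_add_finrank_ker f
    have e2 : Module.finrank F (LinearMap.range f) ≤ 6 := by
      refine le_trans (Submodule.finrank_le _) ?_
      rw [Module.finrank_fin_fun]
    have e3 : LinearMap.ker f ≠ ⊥ := by
      intro h
      rw [h, finrank_bot] at e1
      omega
    obtain ⟨w, hw, hw0⟩ := Submodule.exists_mem_ne_zero_of_ne_bot e3
    refine ⟨w, hw0, fun i => ?_⟩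
    have := congrFun (LinearMap.mem_ker.1 hw) i
    simpa [f] using this
  have w1 : polar Q x1 w = 0 := hw 0
  have w2 : polar Q y1 w = 0 := hw 1
  have w3 : polar Q x2 w = 0 := hw 2
  have w4 : polar Q y2 w = 0 := hw 3
  have w5 : polar Q x3 w = 0 := hw 4
  have w6 : polar Q y3 w = 0 := hw 5
  by_cases hQw : Q w = 0
  · -- a partner of `w`
    obtain ⟨z, hz⟩ := hQ.exists_polar_eq hw0 1
    obtain ⟨z', hz'⟩ : ∃ z', z' = proj Q x3 y3 (proj Q x2 y2 (proj Q x1 y1 z)) := ⟨_, rfl⟩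
    have e1 : polar Q w z' = 1 := by
      rw [hz', polar_proj_of_perp w5 w6, polar_proj_of_perp w3 w4, polar_proj_of_perp w1 w2, hz]
    have e2 : polar Q x1 z' = 0 := by
      rw [hz', polar_proj_of_perp (polar_zero_comm b1) (polar_zero_comm c1),
        polar_proj_of_perp (polar_zero_comm a1) (polar_zero_comm a2), polar_proj_left h1]
    have e3 : polar Q y1 z' = 0 := by
      rw [hz', polar_proj_of_perp (polar_zero_comm b2) (polar_zero_comm c2),
        polar_proj_of_perp (polar_zero_comm a3) (polar_zero_comm a4), polar_proj_right h1]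
    have e4 : polar Q x2 z' = 0 := by
      rw [hz', polar_proj_of_perp (polar_zero_comm b3) (polar_zero_comm c3), polar_proj_left h2]
    have e5 : polar Q y2 z' = 0 := by
      rw [hz', polar_proj_of_perp (polar_zero_comm b4) (polar_zero_comm c4), polar_proj_right h2]
    have e6 : polar Q x3 z' = 0 := by rw [hz', polar_proj_left h3]
    have e7 : polar Q y3 z' = 0 := by rw [hz', polar_proj_right h3]
    refine ⟨x1, y1, x2, y2, x3, y3, z' + (1 - Q z') • w, h1, h2, h3, ?_, ⟨a1, a2, a3, a4⟩, ⟨b1, c1, b2, c2⟩,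
      ⟨b3, c3, b4, c4⟩, ⟨?_, ?_⟩, ⟨?_, ?_⟩, ⟨?_, ?_⟩⟩
    · rw [Q_add, QuadraticMap.map_smul, hQw, polar_smul_right, polar_comm Q z' w, e1]
      simp
    all_goals
      rw [polar_add_right, polar_smul_right]
      simp [e2, e3, e4, e5, e6, e7, w1, w2, w3, w4, w5, w6]
  · exact ⟨x1, y1, x2, y2, x3, y3, w, h1, h2, h3, hQw, ⟨a1, a2, a3, a4⟩, ⟨b1, c1, b2, c2⟩, ⟨b3, c3, b4, c4⟩, ⟨w1, w2⟩, ⟨w3, w4⟩,
      ⟨w5, w6⟩⟩

/-- rotations in orthogonal planes, reflections in orthogonal vectors commute -/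
theorem TP.comm_refl {τ β : F} {a b w : V} (h : TP Q τ β a b) (hw : Q w ≠ 0) (ha : polar Q a w = 0) (hb : polar Q b w = 0) :
    h.rot * refl Q w hw = refl Q w hw * h.rot := by
  have e1 := refl_comm h.na hw ha
  have e2 := refl_comm h.nb hw hb
  unfold TP.rot
  rw [mul_assoc, e2, ← mul_assoc, e1, mul_assoc]

/-- orthogonal planes -/
structure Orth (Q : QuadraticForm F V) (a b c d : V) : Prop where
  ac : polar Q a c = 0
  ad : polar Q a d = 0
  bc : polar Q b c = 0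
  bd : polar Q b d = 0

theorem Orth.symm {a b c d : V} (h : Orth Q a b c d) : Orth Q c d a b :=
  ⟨polar_zero_comm h.ac, polar_zero_comm h.bc, polar_zero_comm h.ad, polar_zero_comm h.bd⟩

theorem TP.comm_rot {τ β γ : F} {a b c d : V} (h : TP Q τ β a b) (h' : TP Q τ γ c d) (ho : Orth Q a b c d) :
    h.rot * h'.rot = h'.rot * h.rot := by
  have e1 := h.comm_refl h'.na ho.ac ho.bc
  have e2 := h.comm_refl h'.nb ho.ad ho.bd
  show h.rot * (refl Q c h'.na * refl Q d h'.nb) = refl Q c h'.na * refl Q d h'.nb * h.rot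
  rw [← mul_assoc, e1, mul_assoc, e2, mul_assoc]

theorem TP.rot_of_orth {τ β : F} {a b c d : V} (h : TP Q τ β a b) (ho : Orth Q a b c d) : h.rot c = c ∧ h.rot d = d :=
  ⟨h.rot_fix ho.ac ho.bc, h.rot_fix ho.ad ho.bd⟩

/-- the submodule orthogonal to a plane -/
theorem TP.mem_fixs {τ β : F} {a b : V} (h : TP Q τ β a b) (h0 : τ ≠ 0) (h4 : τ ^ 2 - 4 ≠ 0) {v : V} :
    h.rot v = v ↔ polar Q a v = 0 ∧ polar Q b v = 0 := by
  constructor
  · intro hv
    exact h.fix_of h0 h4 (g := 1) (O Q).one_mem rfl rfl hv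
  · rintro ⟨h1, h2⟩
    exact h.rot_fix h1 h2

theorem exists_three [Fintype F] {p : ℕ} [hp : Fact p.Prime] (hQ : Nondeg Q) (h7 : 7 ≤ finrank F V) (hp2 : p ≠ 2)
    (hd : p ∣ Fintype.card F ^ 2 - 1) :
    ∃ a b c y d : V ≃ₗ[F] V, a ∈ E Q ∧ b ∈ E Q ∧ c ∈ E Q ∧ y ∈ E Q ∧ d ∈ E Q ∧ a ^ p = 1 ∧ b ^ p = 1 ∧ c ^ p = 1 ∧ y ^ p = 1 ∧
      a ≠ 1 ∧ b ≠ 1 ∧ c ≠ 1 ∧ y ≠ 1 ∧ y * a = a * y ∧ y * b = b * y ∧ d * a = a * d ∧ d * b = b * d ∧
      d * y * d⁻¹ = y⁻¹ ∧ fixs b < fixs a ∧ fixs c < fixs b := by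
  have hG : Good Q := good_of_finite hQ (by omega)
  obtain ⟨τ, h0, h4, hτ⟩ := exists_tr (F := F) hp2 hd
  obtain ⟨x1, y1, x2, y2, x3, y3, w, k1, k2, k3, hw, ⟨a1, a2, a3, a4⟩, ⟨b1, b2, b3, b4⟩, ⟨c1, c2, c3, c4⟩, ⟨w1, w2⟩, ⟨w3, w4⟩,
    ⟨w5, w6⟩⟩ := exists_frame hQ h7
  obtain ⟨u1, v1, z1, t1, hz1, m1, n1, f1⟩ := exists_plane (τ := τ) hw h4 k1 rfl w1 w2
  have g1 := fun u h1 h2 h3 => f1 u h1 h2 h3
  have q2x := g1 x2 a1 a3 (polar_zero_comm w3)
  have q2y := g1 y2 a2 a4 (polar_zero_comm w4)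
  have q3x := g1 x3 b1 b3 (polar_zero_comm w5)
  have q3y := g1 y3 b2 b4 (polar_zero_comm w6)
  obtain ⟨u2, v2, z2, t2, hz2, m2, n2, f2⟩ := exists_plane (τ := τ) hz1 h4 k2 rfl (polar_zero_comm q2x.2.2)
    (polar_zero_comm q2y.2.2)
  have r3x := f2 x3 c1 c3 q3x.2.2
  have r3y := f2 y3 c2 c4 q3y.2.2
  have ru1 := f2 u1 (polar_zero_comm q2x.1) (polar_zero_comm q2y.1) (polar_zero_comm m1)
  have rv1 := f2 v1 (polar_zero_comm q2x.2.1) (polar_zero_comm q2y.2.1) (polar_zero_comm n1)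
  obtain ⟨u3, v3, z3, t3, hz3, m3, n3, f3⟩ := exists_plane (τ := τ) hz2 h4 k3 rfl (polar_zero_comm r3x.2.2)
    (polar_zero_comm r3y.2.2)
  have su1 := f3 u1 (polar_zero_comm q3x.1) (polar_zero_comm q3y.1) ru1.2.2
  have sv1 := f3 v1 (polar_zero_comm q3x.2.1) (polar_zero_comm q3y.2.1) rv1.2.2
  have su2 := f3 u2 (polar_zero_comm r3x.1) (polar_zero_comm r3y.1) (polar_zero_comm m2)
  have sv2 := f3 v2 (polar_zero_comm r3x.2.1) (polar_zero_comm r3y.2.1) (polar_zero_comm n2)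
  have o12 : Orth Q u1 v1 u2 v2 := Orth.symm ⟨ru1.1, rv1.1, ru1.2.1, rv1.2.1⟩
  have o13 : Orth Q u1 v1 u3 v3 := Orth.symm ⟨su1.1, sv1.1, su1.2.1, sv1.2.1⟩
  have o23 : Orth Q u2 v2 u3 v3 := Orth.symm ⟨su2.1, sv2.1, su2.2.1, sv2.2.1⟩
  have cm12 := t1.comm_rot t2 o12
  have cm13 := t1.comm_rot t3 o13
  have cm23 := t2.comm_rot t3 o23
  have p1 := t1.pow_eq_one h4 (hτ (V := V))
  have p2 := t2.pow_eq_one h4 (hτ (V := V))
  have p3 := t3.pow_eq_one h4 (hτ (V := V))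
  have E1 := t1.rot_mem_E hG
  have E2 := t2.rot_mem_E hG
  have E3 := t3.rot_mem_E hG
  have O1 := E_le_O E1
  have O2 := E_le_O E2
  have O3 := E_le_O E3
  -- fixed vectors
  have F1 : ∀ v, t1.rot v = v ↔ polar Q u1 v = 0 ∧ polar Q v1 v = 0 := fun v => t1.mem_fixs h0 h4
  have F2 : ∀ v, (t1.rot * t2.rot) v = v ↔ (polar Q u1 v = 0 ∧ polar Q v1 v = 0) ∧ (polar Q u2 v = 0 ∧ polar Q v2 v = 0) := by
    intro v
    constructor
    · intro hv
      refine ⟨t1.fix_of h0 h4 O2 (t2.rot_of_orth o12.symm).1 (t2.rot_of_orth o12.symm).2 hv, ?_⟩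
      rw [cm12] at hv
      exact t2.fix_of h0 h4 O1 (t1.rot_of_orth o12).1 (t1.rot_of_orth o12).2 hv
    · rintro ⟨e1, e2⟩
      rw [LinearEquiv.mul_apply, t2.rot_fix e2.1 e2.2, t1.rot_fix e1.1 e1.2]
  have F3 : ∀ v, (t1.rot * t2.rot * t3.rot) v = v ↔ (polar Q u1 v = 0 ∧ polar Q v1 v = 0) ∧
      (polar Q u2 v = 0 ∧ polar Q v2 v = 0) ∧ (polar Q u3 v = 0 ∧ polar Q v3 v = 0) := by
    intro v
    constructor
    · intro hv
      refine ⟨?_, ?_, ?_⟩
      · rw [mul_assoc] at hv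
        refine t1.fix_of h0 h4 ((O Q).mul_mem O2 O3) ?_ ?_ hv
        · rw [LinearEquiv.mul_apply, (t3.rot_of_orth o13.symm).1, (t2.rot_of_orth o12.symm).1]
        · rw [LinearEquiv.mul_apply, (t3.rot_of_orth o13.symm).2, (t2.rot_of_orth o12.symm).2]
      · rw [cm12, mul_assoc] at hv
        refine t2.fix_of h0 h4 ((O Q).mul_mem O1 O3) ?_ ?_ hv
        · rw [LinearEquiv.mul_apply, (t3.rot_of_orth o23.symm).1, (t1.rot_of_orth o12).1]
        · rw [LinearEquiv.mul_apply, (t3.rot_of_orth o23.symm).2, (t1.rot_of_orth o12).2]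
      · rw [mul_assoc, cm23, ← mul_assoc, cm13, mul_assoc] at hv
        refine t3.fix_of h0 h4 ((O Q).mul_mem O1 O2) ?_ ?_ hv
        · rw [LinearEquiv.mul_apply, (t2.rot_of_orth o23).1, (t1.rot_of_orth o13).1]
        · rw [LinearEquiv.mul_apply, (t2.rot_of_orth o23).2, (t1.rot_of_orth o13).2]
    · rintro ⟨e1, e2, e3⟩
      rw [LinearEquiv.mul_apply, LinearEquiv.mul_apply, t3.rot_fix e3.1 e3.2, t2.rot_fix e2.1 e2.2, t1.rot_fix e1.1 e1.2]
  have n1' : ¬ (polar Q u1 u1 = 0 ∧ polar Q v1 u1 = 0) := by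
    rintro ⟨-, h⟩
    rw [polar_comm, t1.ab] at h
    exact mul_ne_zero h0 t1.ne h
  have n2' : ¬ (polar Q u2 u2 = 0 ∧ polar Q v2 u2 = 0) := by
    rintro ⟨-, h⟩
    rw [polar_comm, t2.ab] at h
    exact mul_ne_zero h0 t2.ne h
  have n3' : ¬ (polar Q u3 u3 = 0 ∧ polar Q v3 u3 = 0) := by
    rintro ⟨-, h⟩
    rw [polar_comm, t3.ab] at h
    exact mul_ne_zero h0 t3.ne h
  have hone : ∀ v : V, (1 : V ≃ₗ[F] V) v = v := fun v => rfl
  -- the element inverting the third rotation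
  obtain ⟨s, t, hst⟩ := t3.exists_norm h4 (Q z3)
  have hst0 : Q (s • u3 + t • v3) ≠ 0 := by rw [hst]; exact hz3
  have hinv := t3.refl_rot hst0
  have hc3 := t3.comm_refl hz3 m3 n3
  -- `z3` and the third plane are orthogonal to the first two planes
  have d1 : polar Q u1 z3 = 0 := polar_zero_comm su1.2.2
  have d2 : polar Q v1 z3 = 0 := polar_zero_comm sv1.2.2
  have d3 : polar Q u2 z3 = 0 := polar_zero_comm su2.2.2
  have d4 : polar Q v2 z3 = 0 := polar_zero_comm sv2.2.2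
  have d5 : polar Q u1 (s • u3 + t • v3) = 0 := by
    rw [polar_add_right, polar_smul_right, polar_smul_right, o13.ac, o13.ad]; simp
  have d6 : polar Q v1 (s • u3 + t • v3) = 0 := by
    rw [polar_add_right, polar_smul_right, polar_smul_right, o13.bc, o13.bd]; simp
  have d7 : polar Q u2 (s • u3 + t • v3) = 0 := by
    rw [polar_add_right, polar_smul_right, polar_smul_right, o23.ac, o23.ad]; simp
  have d8 : polar Q v2 (s • u3 + t • v3) = 0 := by
    rw [polar_add_right, polar_smul_right, polar_smul_right, o23.bc, o23.bd]; simp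
  have k1' := t1.comm_refl hz3 d1 d2
  have k2' := t2.comm_refl hz3 d3 d4
  have k3' := t1.comm_refl hst0 d5 d6
  have k4' := t2.comm_refl hst0 d7 d8
  have hda : refl Q (s • u3 + t • v3) hst0 * refl Q z3 hz3 * t1.rot = t1.rot * (refl Q (s • u3 + t • v3) hst0 * refl Q z3 hz3) := by
    rw [mul_assoc, ← k1', ← mul_assoc, ← k3', mul_assoc]
  have hdb : refl Q (s • u3 + t • v3) hst0 * refl Q z3 hz3 * t2.rot = t2.rot * (refl Q (s • u3 + t • v3) hst0 * refl Q z3 hz3) := by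
    rw [mul_assoc, ← k2', ← mul_assoc, ← k4', mul_assoc]
  refine ⟨t1.rot, t1.rot * t2.rot, t1.rot * t2.rot * t3.rot, t3.rot, refl Q (s • u3 + t • v3) hst0 * refl Q z3 hz3,
    E1, (E Q).mul_mem E1 E2, (E Q).mul_mem ((E Q).mul_mem E1 E2) E3, E3, hG.refl_mul_refl_mem hz3 hst0 hst.symm,
    p1, ?_, ?_, p3, ?_, ?_, ?_, ?_, cm13.symm, ?_, hda, ?_, ?_, ?_, ?_⟩
  · rw [Commute.mul_pow (show Commute _ _ from cm12), p1, p2, one_mul]
  · have e : Commute (t1.rot * t2.rot) t3.rot := Commute.mul_left (show Commute _ _ from cm13) (show Commute _ _ from cm23)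
    rw [e.mul_pow, Commute.mul_pow (show Commute _ _ from cm12), p1, p2, p3, one_mul, one_mul]
  · intro h
    exact n1' ((F1 u1).1 (by rw [h]; rfl))
  · intro h
    exact n1' ((F2 u1).1 (by rw [h]; rfl)).1
  · intro h
    exact n1' ((F3 u1).1 (by rw [h]; rfl)).1
  · intro h
    exact n3' ((t3.mem_fixs h0 h4 (v := u3)).1 (by rw [h]; rfl))
  · rw [← mul_assoc, ← cm13, mul_assoc, ← cm23, mul_assoc]
  · rw [← mul_assoc, hda, mul_assoc, hdb, mul_assoc]
  · rw [mul_inv_rev, refl_inv, refl_inv]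
    have e1 : refl Q (s • u3 + t • v3) hst0 * refl Q z3 hz3 * t3.rot * (refl Q z3 hz3 * refl Q (s • u3 + t • v3) hst0) =
        refl Q (s • u3 + t • v3) hst0 * (refl Q z3 hz3 * t3.rot * refl Q z3 hz3) * refl Q (s • u3 + t • v3) hst0 := by
      simp only [mul_assoc]
    rw [e1, ← hc3, mul_assoc t3.rot, refl_mul_self, mul_one, hinv]
  · refine lt_of_le_of_ne (fun v hv => ?_) (fun h => ?_)
    · rw [mem_fixs] at hv ⊢
      exact (F1 v).2 ((F2 v).1 hv).1
    · have e1 : u2 ∈ fixs t1.rot := by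
        rw [mem_fixs]
        exact (t1.rot_of_orth o12).1
      rw [← h, mem_fixs] at e1
      exact n2' ((F2 u2).1 e1).2
  · refine lt_of_le_of_ne (fun v hv => ?_) (fun h => ?_)
    · rw [mem_fixs] at hv ⊢
      exact (F2 v).2 ⟨((F3 v).1 hv).1, ((F3 v).1 hv).2.1⟩
    · have e1 : u3 ∈ fixs (t1.rot * t2.rot) := by
        rw [mem_fixs, LinearEquiv.mul_apply, (t2.rot_of_orth o23).1, (t1.rot_of_orth o13).1]
      rw [← h, mem_fixs] at e1
      exact n3' ((F3 u3).1 e1).2.2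

end Cfsg.Agent.H35.K6
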